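import Mathlib
import Cfsg.Agent.Lib.ZStar.EC.Count

/-!
# Extremely closed abelian `2`-subgroups: the class of a suitable involution meets `H` only once
-/

set_option autoImplicit false
set_option linter.unusedSectionVars false
set_option linter.style.haveILetI false

namespace Cfsg.Agent.Lib.ZStar.EC

open Cfsg Subgroup
open Cfsg.Agent.Lib.Blocks.Central Cfsg.Agent.Lib.Blocks.Weak Cfsg.Agent.Lib.Blocks.Third
open Cfsg.Agent.Lib.Blocks.General
open Cfsg.Agent.Lib.ZStar.Section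
open scoped ComplexConjugate

universe u

variable {G : Type u} [Group G] [Fintype G] [Fintype (IrrCharacter G)]
variable {H : Subgroup G} [Fintype H]

/-- The exceptional case `|H| = 4` with three conjugate involutions. -/
theorem not_three {M : Ideal AlgInt} (hM : IsPModular 2 M) (hH : IsPGroup 2 H)
    (hab : IsMulCommutative H) (hcl : IsExtremelyClosed H) (hIH : CentHyp H) {a b : G}
    (htop : H ⊔ cj a H ⊔ cj b H = ⊤) {x₀ : G} (hx₀ : x₀ ∈ H) (hx1 : x₀ ≠ 1)
    {m d : IrrCharacter G → ℕ} {Lr : ℝ}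
    (hm : ∀ χ, tH H χ = (Nat.card H : ℂ) * m χ)
    (hd : ∀ χ : IrrCharacter G, (χ : G → ℂ) 1 = d χ) (hdpos : ∀ χ, 0 < d χ)
    {α : IrrCharacter G → ℤ} (hα : ∀ χ : IrrCharacter G, (χ : G → ℂ) x₀ = α χ)
    (hL : ∀ h ∈ H, h ≠ 1 → Lv M H h = (Lr : ℂ))
    (hq : Nat.card H = 4) (hk : kk H x₀ = 3) : False := by
  classical
  -- all nonidentity elements of `H` are conjugate to `x₀`
  have hsub : Finset.univ.filter (fun a : H => IsConj (a : G) x₀) ⊆ Finset.univ.erase (1 : H) := by
    intro y hy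
    simp only [Finset.mem_filter, Finset.mem_univ, true_and] at hy
    refine Finset.mem_erase.mpr ⟨?_, Finset.mem_univ _⟩
    rintro rfl
    exact hx1 (isConj_one_right.mp hy)
  have hcardE : (Finset.univ.erase (1 : H)).card = 3 := by
    rw [Finset.card_erase_of_mem (Finset.mem_univ _), Finset.card_univ,
      ← Nat.card_eq_fintype_card, hq]
  have heq : Finset.univ.filter (fun a : H => IsConj (a : G) x₀) = Finset.univ.erase (1 : H) := by
    apply Finset.eq_of_subset_of_card_le hsub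
    rw [hcardE]
    exact hk.ge
  have hconj : ∀ y ∈ Finset.univ.erase (1 : H), IsConj ((y : H) : G) x₀ := by
    intro y hy
    rw [← heq] at hy
    simpa using hy
  have hq' : (Nat.card H : ℝ) = 4 := by exact_mod_cast hq
  have hS : ∀ χ : IrrCharacter G, gg H m d χ = 3 * (α χ : ℝ) := by
    intro χ
    apply Complex.ofReal_injective
    rw [← tH_sub_one_eq hm hd]
    have h1 : tH H χ - (χ : G → ℂ) 1 = ∑ a ∈ Finset.univ.erase (1 : H), (χ : G → ℂ) a := by
      rw [Finset.sum_erase_eq_sub (Finset.mem_univ _)]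
      rfl
    rw [h1]
    have h2 : ∀ y ∈ Finset.univ.erase (1 : H), (χ : G → ℂ) y = α χ := by
      intro y hy
      obtain ⟨t, ht⟩ := isConj_iff.mp (hconj y hy)
      rw [← hα, ← ht, Cfsg.Agent.Lib.Char.Basic.isClassFunction_of_isIrrCharacter χ.2]
    rw [Finset.sum_congr rfl h2, Finset.sum_const, hcardE]
    push_cast
    simp
  have h1 := sum_erase_tau hM hH hab hcl hIH hm hd hL
  rw [hq'] at h1
  -- a character with negative value
  have hα1 : α (oneI G) = 1 := by
    have := hα (oneI G)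
    rw [oneI_apply] at this
    exact_mod_cast this.symm
  have h2 : ∑ χ ∈ BB M G, (d χ : ℤ) * α χ = 0 := by
    have h3 := secSum_one_eq_zero hM (orderOf_two_pow hH hx₀) hx1
    rw [secSum_eq_sum] at h3
    have h4 : ((∑ χ ∈ BB M G, (d χ : ℤ) * α χ : ℤ) : ℂ) = 0 := by
      rw [← h3]
      push_cast
      refine Finset.sum_congr rfl fun χ _ => ?_
      rw [hd, hα]
      simp
    exact_mod_cast h4
  rw [← Finset.add_sum_erase _ _ (oneI_mem_BB hM), d_oneI hd, hα1] at h2
  have h3 : ∑ χ ∈ (BB M G).erase (oneI G), (d χ : ℤ) * α χ < 0 := by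
    simp only [Nat.cast_one, mul_one] at h2
    omega
  obtain ⟨χ₁, hχ₁, hneg⟩ : ∃ χ ∈ (BB M G).erase (oneI G), (d χ : ℤ) * α χ < 0 := by
    by_contra hno
    push Not at hno
    have := Finset.sum_nonneg hno
    omega
  have hd1 : (0 : ℤ) < d χ₁ := by exact_mod_cast hdpos χ₁
  have hα₁ : α χ₁ ≤ -1 := by
    have : α χ₁ < 0 := by
      by_contra h
      push Not at h
      have := mul_nonneg hd1.le h
      omega
    omega
  have hα₁r : (α χ₁ : ℝ) ≤ -1 := by exact_mod_cast hα₁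
  -- all terms are nonnegative
  have hnn : ∀ χ ∈ (BB M G).erase (oneI G), 0 ≤ gg H m d χ ^ 2 * (4 - 1 - tt H m d χ) := by
    intro χ hχ
    have h4 := tt_le hm hd hdpos htop (Finset.ne_of_mem_erase hχ)
    rw [hq'] at h4
    exact mul_nonneg (sq_nonneg _) (by linarith)
  have h5 := Finset.single_le_sum hnn hχ₁
  rw [h1, hS χ₁] at h5
  have hd1r : (0 : ℝ) < d χ₁ := by exact_mod_cast hdpos χ₁
  have ht : tt H m d χ₁ = 1 + 3 * (α χ₁ : ℝ) / d χ₁ := by
    have h6 := hS χ₁
    unfold gg at h6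
    unfold tt
    field_simp
    linarith
  have h7 : 3 * (α χ₁ : ℝ) / d χ₁ < 0 := div_neg_of_neg_of_pos (by linarith) hd1r
  have h8 : tt H m d χ₁ < 1 := by rw [ht]; linarith
  have h9 : (3 * (α χ₁ : ℝ)) ^ 2 ≥ 9 := by nlinarith
  nlinarith

/-- **The class of a suitable involution meets `H` only once.** -/
theorem kk_eq_one {M : Ideal AlgInt} (hM : IsPModular 2 M) (hH : IsPGroup 2 H)
    (hab : IsMulCommutative H) (hcl : IsExtremelyClosed H) (hIH : CentHyp H) {a b : G}
    (htop : H ⊔ cj a H ⊔ cj b H = ⊤) {x₀ : G} (hx₀ : x₀ ∈ H) (ho : orderOf x₀ = 2)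
    (hodd : Odd (kk H x₀)) : kk H x₀ = 1 := by
  classical
  have hx1 : x₀ ≠ 1 := by
    intro h
    rw [h, orderOf_one] at ho
    omega
  choose m hm using fun χ : IrrCharacter G => exists_sum_eq χ H
  have hm' : ∀ χ, tH H χ = (Nat.card H : ℂ) * m χ := hm
  choose d hdpos hd using fun χ : IrrCharacter G =>
    Cfsg.Agent.Lib.Char.Complete.exists_pos_deg_of_isIrr χ.2
  choose α hα using fun χ : IrrCharacter G => exists_int_value χ ho
  set D : ℤ := ∑ χ ∈ BB M G, (α χ) ^ 2 with hD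
  have hsec : secSum M x₀ x₀ = (D : ℂ) := by
    rw [secSum_eq_sum, hD]
    push_cast
    refine Finset.sum_congr rfl fun χ _ => ?_
    rw [hα]
    simp [pow_two]
  set Lr : ℝ := (kk H x₀ : ℝ) * (D : ℝ) with hLr
  have hLx : Lv M H x₀ = (Lr : ℂ) := by
    rw [Lv_eq hM hH hx₀, hsec, hLr]
    push_cast
    rfl
  have hL : ∀ h ∈ H, h ≠ 1 → Lv M H h = (Lr : ℂ) := fun h hh hh1 => by
    rw [Lv_symm hM hH hab hcl hIH hx₀ hx1 hh hh1, hLx]
  obtain ⟨n, hn⟩ := hH.exists_card_eq
  -- `k ≤ q - 1`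
  have hsub : Finset.univ.filter (fun a : H => IsConj (a : G) x₀) ⊆ Finset.univ.erase (1 : H) := by
    intro y hy
    simp only [Finset.mem_filter, Finset.mem_univ, true_and] at hy
    refine Finset.mem_erase.mpr ⟨?_, Finset.mem_univ _⟩
    rintro rfl
    exact hx1 (isConj_one_right.mp hy)
  have hle : kk H x₀ + 1 ≤ Nat.card H := by
    have h1 := Finset.card_le_card hsub
    rw [Finset.card_erase_of_mem (Finset.mem_univ _), Finset.card_univ,
      ← Nat.card_eq_fintype_card] at h1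
    have h2 : 0 < Nat.card H := Nat.card_pos
    change kk H x₀ ≤ _ at h1
    omega
  obtain ⟨k', hk'⟩ := hodd
  rcases n with _ | _ | _ | n
  · simp only [pow_zero] at hn
    omega
  · simp only [zero_add, pow_one] at hn
    omega
  · have h4 : Nat.card H = 4 := by rw [hn]; norm_num
    have h3 : kk H x₀ = 1 ∨ kk H x₀ = 3 := by omega
    rcases h3 with h3 | h3
    · exact h3
    · exact (not_three hM hH hab hcl hIH htop hx₀ hx1 hm' hd hdpos hα hL h4 h3).elim
  · have hq : (8 : ℝ) ≤ Nat.card H := by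
      have h4 : 8 ≤ Nat.card H := by
        rw [hn, show n + 1 + 1 + 1 = n + 3 by ring, pow_add]
        have : 1 ≤ 2 ^ n := Nat.one_le_two_pow
        omega
      exact_mod_cast h4
    have ht : ∀ χ ∈ (BB M G).erase (oneI G), tt H m d χ < ((Nat.card H : ℝ) - 1) / 2 := by
      intro χ hχ
      exact tau_lt_of_large hq (tt_le hm' hd hdpos htop (Finset.ne_of_mem_erase hχ))
        (gap_real hM hH hab hcl hIH hm' hd hdpos (Finset.mem_of_mem_erase hχ))
    have hlt := lt_of_sums hq (sum_erase_tau hM hH hab hcl hIH hm' hd hL)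
      (sum_erase_sq hM hH hm' hd hL) ht
    have hge := le_Lr hM hH hab hcl hIH hm' hd hL hx₀ hx1
    have h5 : ((Nat.card H : ℕ) : ℤ) ≤ (kk H x₀ : ℤ) * D := by
      rw [hLr] at hge
      exact_mod_cast hge
    have h6 : (kk H x₀ : ℤ) * D < (Nat.card H : ℕ) + 1 := by
      rw [hLr] at hlt
      exact_mod_cast hlt
    have h7 : (kk H x₀ : ℤ) * D = (Nat.card H : ℕ) := by omega
    have h8 : (kk H x₀ : ℤ) ∣ ((Nat.card H : ℕ) : ℤ) := ⟨D, h7.symm⟩
    have h9 : kk H x₀ ∣ Nat.card H := Int.natCast_dvd_natCast.mp h8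
    rw [hn] at h9
    have h10 : Nat.Coprime (kk H x₀) (2 ^ (n + 1 + 1 + 1)) :=
      Nat.Coprime.pow_right _ (Nat.coprime_two_right.mpr ⟨k', hk'⟩)
    exact Nat.Coprime.eq_one_of_dvd h10 h9

end Cfsg.Agent.Lib.ZStar.EC
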