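import Mathlib
import Cfsg.Agent.Lib.ZStar.EC.Local

/-!
# Extremely closed abelian `2`-subgroups: overgroups and quotients
-/

set_option autoImplicit false
set_option linter.unusedSectionVars false
set_option linter.style.haveILetI false

namespace Cfsg.Agent.Lib.ZStar.EC

open Cfsg Subgroup

universe u v

variable {G : Type u} [Group G] [Finite G] {H : Subgroup G}

/-- Extreme closure passes to overgroups. -/
theorem isExtremelyClosed_subgroupOf (hcl : IsExtremelyClosed H) {Y : Subgroup G} (hHY : H ≤ Y) :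
    IsExtremelyClosed (H.subgroupOf Y) := by
  intro y
  apply le_antisymm
  · rintro n ⟨hn1, hn2⟩
    have h1 : H.subgroupOf Y ⊔ (H.subgroupOf Y).map (MulAut.conj y).toMonoidHom ≤
        (H ⊔ cj (y : G) H).subgroupOf Y := by
      refine sup_le ?_ ?_
      · intro x hx
        exact Subgroup.mem_subgroupOf.mpr (Subgroup.mem_sup_left (Subgroup.mem_subgroupOf.mp hx))
      · rintro _ ⟨a, ha, rfl⟩
        refine Subgroup.mem_subgroupOf.mpr (Subgroup.mem_sup_right ?_)
        exact conj_mem_cj (Subgroup.mem_subgroupOf.mp ha)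
    have h2 : (n : G) ∈ H ⊔ cj (y : G) H := Subgroup.mem_subgroupOf.mp (h1 hn1)
    have h3 : (n : G) ∈ normalizer (H : Set G) := by
      apply Cfsg.Agent.Lib.HSubgroup.Basic.mem_normalizer_of_conj_le
      intro x hx
      have h4 : (⟨x, hHY hx⟩ : Y) ∈ H.subgroupOf Y := Subgroup.mem_subgroupOf.mpr hx
      have h5 := (mem_normalizer_iff.mp hn2 _).mp h4
      exact Subgroup.mem_subgroupOf.mp h5
    have h6 := hcl (y : G)
    rw [show H ⊔ H.map (MulAut.conj (y : G)).toMonoidHom = H ⊔ cj (y : G) H from rfl] at h6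
    have h7 : (n : G) ∈ H := by
      rw [← h6]
      exact ⟨h2, h3⟩
    exact Subgroup.mem_subgroupOf.mpr h7
  · refine le_inf le_sup_left ?_
    exact Subgroup.le_normalizer

/-- Extreme closure passes to images. -/
theorem isExtremelyClosed_map {Q : Type v} [Group Q] [Finite Q] (hH : IsPGroup 2 H)
    (hab : IsMulCommutative H) (hcl : IsExtremelyClosed H) (f : G →* Q)
    (hf : Function.Surjective f) : IsExtremelyClosed (H.map f) := by
  classical
  intro q
  obtain ⟨g, rfl⟩ := hf q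
  obtain ⟨K, hK⟩ := exists_isComp hH hab hcl g
  have hHb : IsPGroup 2 (H.map f) := hH.map f
  have hmap : (H.map f).map (MulAut.conj (f g)).toMonoidHom = (cj g H).map f := by
    ext y
    constructor
    · rintro ⟨_, ⟨a, ha, rfl⟩, rfl⟩
      exact ⟨g * a * g⁻¹, conj_mem_cj ha, by simp [MulAut.conj_apply]⟩
    · rintro ⟨_, ⟨a, ha, rfl⟩, rfl⟩
      exact ⟨f a, ⟨a, ha, rfl⟩, by simp [MulAut.conj_apply]⟩
  apply le_antisymm
  · rintro n ⟨hn1, hn2⟩
    rw [hmap, ← Subgroup.map_sup, ← hK.sup] at hn1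
    obtain ⟨z, hz, rfl⟩ := hn1
    obtain ⟨k, hk, t, ht, rfl⟩ := exists_mul_of_mem_sup hK.norm hz
    have hft : f t ∈ H.map f := ⟨t, ht, rfl⟩
    have hfk : f k ∈ normalizer ((H.map f : Subgroup Q) : Set Q) := by
      have h1 : f k = f (k * t) * (f t)⁻¹ := by simp
      rw [h1]
      exact Subgroup.mul_mem _ hn2 (Subgroup.inv_mem _ (Subgroup.le_normalizer hft))
    -- `f k = 1`
    set K₀ : Subgroup G := K ⊓ f.ker with hK₀
    have hK₀odd : Odd (Nat.card K₀) :=
      Odd.of_dvd_nat hK.odd (Subgroup.card_dvd_of_le inf_le_left)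
    have hK₀n : ∀ s ∈ H, ∀ c ∈ K₀, s * c * s⁻¹ ∈ K₀ := by
      intro s hs c hc
      refine ⟨hK.norm s hs c hc.1, ?_⟩
      have h : f c = 1 := hc.2
      change f (s * c * s⁻¹) = 1
      simp [h]
    have hcomm : ∀ s ∈ H, k * s * k⁻¹ * s⁻¹ ∈ K₀ := by
      intro s hs
      have hkK : k * s * k⁻¹ * s⁻¹ ∈ K := by
        have e : k * s * k⁻¹ * s⁻¹ = k * (s * k⁻¹ * s⁻¹) := by group
        rw [e]
        exact K.mul_mem hk (hK.norm s hs _ (K.inv_mem hk))
      refine ⟨hkK, ?_⟩
      change f (k * s * k⁻¹ * s⁻¹) = 1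
      have h1 : f (k * s * k⁻¹) ∈ H.map f := by
        have := (mem_normalizer_iff.mp hfk (f s)).mp ⟨s, hs, rfl⟩
        simpa using this
      have h2 : f (k * s * k⁻¹ * s⁻¹) ∈ H.map f := by
        rw [map_mul, map_inv]
        exact Subgroup.mul_mem _ h1 (Subgroup.inv_mem _ ⟨s, hs, rfl⟩)
      have h3 : Odd (orderOf (f (k * s * k⁻¹ * s⁻¹))) :=
        Odd.of_dvd_nat (odd_orderOf_of_mem hK.odd hkK) (orderOf_map_dvd f _)
      exact eq_one_of_pow_of_two hHb h2 h3 (pow_orderOf_eq_one _)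
    have hle : cj k H ≤ K₀ ⊔ H := by
      intro y hy
      rw [mem_cj] at hy
      set s := k⁻¹ * y * k with hs
      have e : y = (k * s * k⁻¹ * s⁻¹) * s := by rw [hs]; group
      rw [e]
      exact Subgroup.mul_mem _ (Subgroup.mem_sup_left (hcomm s hy)) (Subgroup.mem_sup_right hy)
    obtain ⟨c, hc, hcj⟩ := conj_of_le hK₀odd hH hK₀n hle (card_cj k H)
    have h1 : c⁻¹ * k ∈ K := K.mul_mem (K.inv_mem hc.1) hk
    have h2 : c⁻¹ * k ∈ normalizer (H : Set G) := by
      apply mem_normalizer_of_cj_eq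
      rw [← cj_cj, hcj, cj_cj, inv_mul_cancel, cj_one]
    have h3 := hK.triv _ h1 h2
    have h4 : k = c := by
      have := mul_left_cancel (a := c⁻¹) (b := k) (c := c) (by rw [h3]; group)
      exact this
    have h5 : f k = 1 := by
      rw [h4]
      exact hc.2
    rw [map_mul, h5, one_mul]
    exact hft
  · refine le_inf le_sup_left ?_
    exact Subgroup.le_normalizer

/-- The reduction modulo the odd core. -/
theorem top_of_quotient_core (hH : IsPGroup 2 H)
    (hQ : normalizer ((H.map (QuotientGroup.mk' (pPrimeCore 2 G)) : Subgroup (G ⧸ pPrimeCore 2 G)) :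
      Set (G ⧸ pPrimeCore 2 G)) = ⊤) :
    normalizer (H : Set G) ⊔ pPrimeCore 2 G = ⊤ := by
  classical
  set O := pPrimeCore 2 G with hO
  haveI hOn : O.Normal := Cfsg.pPrimeCore_normal 2 G
  have hOodd : Odd (Nat.card O) := Nat.Coprime.odd_of_right Cfsg.Agent.Lib.Core.Basic.pPrimeCore_coprime
  have hn : ∀ t ∈ H, ∀ k ∈ O, t * k * t⁻¹ ∈ O := fun t _ k hk => hOn.conj_mem k hk t
  rw [eq_top_iff]
  intro g _
  have hle : cj g H ≤ O ⊔ H := by
    intro y hy
    rw [mem_cj] at hy
    set s := g⁻¹ * y * g with hs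
    have h1 : QuotientGroup.mk' O g ∈ normalizer ((H.map (QuotientGroup.mk' O) : Subgroup (G ⧸ O)) :
        Set (G ⧸ O)) := by
      rw [hQ]
      exact Subgroup.mem_top _
    have h2 := (mem_normalizer_iff.mp h1 (QuotientGroup.mk' O s)).mp ⟨s, hy, rfl⟩
    obtain ⟨s', hs', e⟩ := h2
    have h3 : y * s'⁻¹ ∈ O := by
      have h4 : QuotientGroup.mk' O s' = QuotientGroup.mk' O y := by
        rw [e, hs]
        simp only [map_mul, map_inv]
        group
      have h5 : s'⁻¹ * y ∈ O := QuotientGroup.eq.mp h4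
      have h6 := hOn.conj_mem _ h5 s'
      have e2 : s' * (s'⁻¹ * y) * s'⁻¹ = y * s'⁻¹ := by group
      rwa [e2] at h6
    have e3 : y = (y * s'⁻¹) * s' := by group
    rw [e3]
    exact Subgroup.mul_mem _ (Subgroup.mem_sup_left h3) (Subgroup.mem_sup_right hs')
  obtain ⟨c, hc, hcj⟩ := conj_of_le hOodd hH hn hle (card_cj g H)
  have h2 : c⁻¹ * g ∈ normalizer (H : Set G) := by
    apply mem_normalizer_of_cj_eq
    rw [← cj_cj, hcj, cj_cj, inv_mul_cancel, cj_one]
  have e : g = (c⁻¹ * g) * (g⁻¹ * c * g) := by group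
  rw [e]
  exact Subgroup.mul_mem _ (Subgroup.mem_sup_left h2) (Subgroup.mem_sup_right (by
    have := hOn.conj_mem c hc g⁻¹
    simpa using this))

/-- The reduction to the normal closure of `H`. -/
theorem top_of_closure (hcl : IsExtremelyClosed H) (hO : pPrimeCore 2 G = ⊥) {R : Subgroup G}
    (hRn : R.Normal) (hHR : H ≤ R)
    (hI : normalizer ((H.subgroupOf R : Subgroup _) : Set R) ⊔ pPrimeCore 2 R = ⊤) :
    normalizer (H : Set G) = ⊤ := by
  classical
  have hOR : pPrimeCore 2 R = ⊥ := by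
    have hsub : R.IsSubnormal := hRn.isSubnormal
    have h1 := Cfsg.Agent.Lib.Core.Basic.map_pPrimeCore_le_of_isSubnormal (p := 2) hsub
    rw [hO] at h1
    have h2 := (Subgroup.map_eq_bot_iff_of_injective _ R.subtype_injective).mp (le_bot_iff.mp h1)
    exact h2
  rw [hOR, sup_bot_eq] at hI
  have hRN : R ≤ normalizer (H : Set G) := by
    intro r hr
    apply Cfsg.Agent.Lib.HSubgroup.Basic.mem_normalizer_of_conj_le
    intro x hx
    have h1 : (⟨r, hr⟩ : R) ∈ normalizer ((H.subgroupOf R : Subgroup _) : Set R) := by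
      rw [hI]
      exact Subgroup.mem_top _
    have h4 : (⟨x, hHR hx⟩ : R) ∈ H.subgroupOf R := Subgroup.mem_subgroupOf.mpr hx
    have h5 := (mem_normalizer_iff.mp h1 _).mp h4
    exact Subgroup.mem_subgroupOf.mp h5
  rw [eq_top_iff]
  intro g _
  have h1 : H ⊔ cj g H ≤ normalizer (H : Set G) := by
    refine sup_le (hHR.trans hRN) (le_trans ?_ hRN)
    intro y hy
    obtain ⟨a, ha, rfl⟩ := hy
    exact hRn.conj_mem a (hHR ha) g
  have h2 := hcl g
  rw [show H ⊔ H.map (MulAut.conj g).toMonoidHom = H ⊔ cj g H from rfl, inf_eq_left.mpr h1] at h2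
  apply Cfsg.Agent.Lib.HSubgroup.Basic.mem_normalizer_of_conj_le
  intro x hx
  have h3 : g * x * g⁻¹ ∈ H ⊔ cj g H := Subgroup.mem_sup_right (conj_mem_cj hx)
  rwa [h2] at h3

end Cfsg.Agent.Lib.ZStar.EC
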