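import Mathlib
import Cfsg.Agent.Lib.ZStar.EC.Final
import Cfsg.Agent.Lib.ZStar.EC.Triple
import Cfsg.Agent.Lib.ZStar.EC.Quot
import Cfsg.Agent.Lib.ZStar.Cor

/-!
# Extremely closed abelian `2`-subgroups: the factorization `G = N_G(H) O(G)`
-/

set_option autoImplicit false
set_option linter.unusedSectionVars false
set_option linter.style.haveILetI false

namespace Cfsg.Agent.Lib.ZStar.EC

open Cfsg Subgroup

universe u

variable {G : Type u} [Group G] [Finite G] {H : Subgroup G}

/-- The quotient by a central `2`-subgroup has no new odd core. -/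
theorem core_central_quot_eq_bot (Z₀ : Subgroup G) [Z₀.Normal] (hZ : ∀ z ∈ Z₀, ∀ g : G, z * g = g * z)
    (h2 : IsPGroup 2 Z₀) (hO : pPrimeCore 2 G = ⊥) : pPrimeCore 2 (G ⧸ Z₀) = ⊥ := by
  classical
  haveI : Fact (Nat.Prime 2) := ⟨Nat.prime_two⟩
  set P := pPrimeCore 2 (G ⧸ Z₀) with hP
  haveI hPn : P.Normal := Cfsg.pPrimeCore_normal 2 (G ⧸ Z₀)
  set L : Subgroup G := P.comap (QuotientGroup.mk' Z₀) with hL
  haveI hLn : L.Normal := hPn.comap _
  have hZL : Z₀ ≤ L := by
    intro z hz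
    change QuotientGroup.mk' Z₀ z ∈ P
    have : QuotientGroup.mk' Z₀ z = 1 := (QuotientGroup.eq_one_iff z).mpr hz
    rw [this]
    exact P.one_mem
  set N : Subgroup L := Z₀.subgroupOf L with hN
  haveI hNn : N.Normal := inferInstance
  let φ : L →* (G ⧸ Z₀) := (QuotientGroup.mk' Z₀).comp L.subtype
  have hker : φ.ker = N := by
    ext x
    simp [φ, hN, Subgroup.mem_subgroupOf, MonoidHom.mem_ker]
  have hrange : Nat.card φ.range = Nat.card P := by
    have : φ.range = P := by
      ext y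
      constructor
      · rintro ⟨x, rfl⟩
        exact x.2
      · intro hy
        obtain ⟨g, rfl⟩ := QuotientGroup.mk'_surjective Z₀ y
        exact ⟨⟨g, hy⟩, rfl⟩
    rw [this]
  have hidx : N.index = Nat.card P := by
    rw [← hker, Subgroup.index_ker, hrange]
  have hcardN : Nat.card N = Nat.card Z₀ :=
    Nat.card_congr (Subgroup.subgroupOfEquivOfLe hZL).toEquiv
  have hPodd : Odd (Nat.card P) :=
    Nat.Coprime.odd_of_right Cfsg.Agent.Lib.Core.Basic.pPrimeCore_coprime
  have hcop : Nat.Coprime (Nat.card N) N.index := by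
    rw [hidx, hcardN]
    obtain ⟨n, hn⟩ := h2.exists_card_eq
    rw [hn]
    exact Nat.Coprime.pow_left _ (Nat.coprime_two_left.mpr hPodd)
  obtain ⟨Q', hQ'⟩ := Subgroup.exists_right_complement'_of_coprime hcop
  have hQ'card : Nat.card Q' = Nat.card P := by
    rw [← hidx]
    exact hQ'.symm.index_eq_card.symm
  set Q : Subgroup G := Q'.map L.subtype with hQ
  have hQcard : Nat.card Q = Nat.card Q' :=
    Nat.card_congr (Subgroup.equivMapOfInjective _ _ L.subtype_injective).symm.toEquiv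
  have hQodd : Odd (Nat.card Q) := by
    rw [hQcard, hQ'card]
    exact hPodd
  have hdec : ∀ y : L, ∃ z ∈ Z₀, ∃ q ∈ Q', (y : G) = z * (q : L) := by
    intro y
    obtain ⟨⟨a, b⟩, e⟩ := hQ'.2 y
    refine ⟨(a : L), Subgroup.mem_subgroupOf.mp a.2, b, b.2, ?_⟩
    rw [← e]
    rfl
  have hmemQ : ∀ y ∈ L, Odd (orderOf y) → y ∈ Q := by
    intro y hy hodd
    obtain ⟨z, hz, q, hq, e⟩ := hdec ⟨y, hy⟩
    change y = z * _ at e
    have hqQ : ((q : L) : G) ∈ Q := ⟨q, hq, rfl⟩
    set q' : G := ((q : L) : G) with hq'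
    have hcomm : Commute z q' := hZ z hz q'
    have hpow : (z * q') ^ orderOf y = z ^ orderOf y * q' ^ orderOf y := hcomm.mul_pow _
    rw [← e, pow_orderOf_eq_one] at hpow
    have h1 : z ^ orderOf y = (q' ^ orderOf y)⁻¹ := eq_inv_of_mul_eq_one_left hpow.symm
    have h3 : z ^ orderOf y = 1 := by
      apply eq_one_of_mem_inf hQodd h2 (Z₀.pow_mem hz _)
      rw [h1]
      exact Q.inv_mem (Q.pow_mem hqQ _)
    have h4 : z = 1 := eq_one_of_pow_of_two h2 hz hodd h3
    rw [e, h4, one_mul]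
    exact hqQ
  have hQn : Q.Normal := by
    constructor
    intro q hq g
    have hqL : q ∈ L := by
      obtain ⟨a, _, rfl⟩ := hq
      exact a.2
    apply hmemQ _ (hLn.conj_mem q hqL g)
    have : g * q * g⁻¹ = MulAut.conj g q := by simp [MulAut.conj_apply]
    rw [this, MulEquiv.orderOf_eq]
    exact odd_orderOf_of_mem hQodd hq
  have hQbot : Q ≤ pPrimeCore 2 G :=
    Cfsg.Agent.Lib.Core.Basic.le_pPrimeCore hQn (Nat.coprime_two_right.mpr hQodd)
  rw [hO] at hQbot
  rw [eq_bot_iff]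
  intro x hx
  obtain ⟨g, rfl⟩ := QuotientGroup.mk'_surjective Z₀ x
  obtain ⟨z, hz, q, hq, e⟩ := hdec ⟨g, hx⟩
  have h1 : ((q : L) : G) = 1 := by
    have : ((q : L) : G) ∈ Q := ⟨q, hq, rfl⟩
    exact hQbot this
  change g = z * _ at e
  rw [h1, mul_one] at e
  rw [e, Subgroup.mem_bot]
  exact (QuotientGroup.eq_one_iff z).mpr hz

/-- **The critical situation does not occur.** -/
theorem critical_false (hH : IsPGroup 2 H) (hab : IsMulCommutative H) (hcl : IsExtremelyClosed H)
    (hne : H ≠ ⊥) (hO : pPrimeCore 2 G = ⊥) (hN : normalClosure (H : Set G) = ⊤)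
    (hZ : ∀ t ∈ H, t ≠ 1 → ∃ g : G, g * t ≠ t * g) (hI : OverHyp H) : False := by
  classical
  letI : Fintype G := Fintype.ofFinite G
  haveI : Finite (IrrCharacter G) := Cfsg.Agent.Lib.Char.Ortho.finite_irrCharacter
  letI : Fintype (IrrCharacter G) := Fintype.ofFinite _
  letI : Fintype H := Fintype.ofFinite _
  have hC : CentHyp H := by
    intro t ht ht1
    apply hI _ (le_centralizer_of_ab hab ht)
    intro htop
    obtain ⟨g, hg⟩ := hZ t ht ht1
    apply hg
    have h1 : g ∈ centralizer ({t} : Set G) := by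
      rw [htop]
      exact Subgroup.mem_top g
    exact Subgroup.mem_centralizer_singleton_iff.mp h1
  obtain ⟨M, hM⟩ := Cfsg.Agent.Lib.BlockH.Basic.exists_isPModular Nat.prime_two
  obtain ⟨x₀, hx₀, ho, hk⟩ := exists_involution_odd hH hne
  have hx1 : x₀ ≠ 1 := by
    intro h
    rw [h, orderOf_one] at ho
    omega
  have hx2 : x₀ * x₀ = 1 := by
    have := pow_orderOf_eq_one x₀
    rwa [ho, pow_two] at this
  have hodd : ∀ g : G, Odd (orderOf (g * x₀ * g⁻¹ * x₀⁻¹)) := by
    by_cases htriple : ∃ a b : G, H ⊔ cj a H ⊔ cj b H = ⊤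
    · obtain ⟨a, b, htop⟩ := htriple
      have h1 := kk_eq_one hM hH hab hcl hC htop hx₀ ho hk
      have huniq : ∀ y ∈ H, IsConj y x₀ → y = x₀ := by
        intro y hy hc
        unfold kk at h1
        obtain ⟨u, hu⟩ := Finset.card_eq_one.mp h1
        have hm1 : (⟨y, hy⟩ : H) ∈ Finset.univ.filter (fun a : H => IsConj (a : G) x₀) := by
          simpa using hc
        have hm2 : (⟨x₀, hx₀⟩ : H) ∈ Finset.univ.filter (fun a : H => IsConj (a : G) x₀) := by
          simp only [Finset.mem_filter, Finset.mem_univ, true_and]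
          exact IsConj.refl _
        rw [hu, Finset.mem_singleton] at hm1 hm2
        have := hm1.trans hm2.symm
        exact congrArg Subtype.val this
      intro g
      obtain ⟨K, hK⟩ := exists_isComp hH hab hcl g
      obtain ⟨c, hc, e⟩ := hK.exists_conj hH
      have h2 : g * x₀ * g⁻¹ ∈ cj c H := by
        rw [← e]
        exact conj_mem_cj hx₀
      have h3 := mem_cj.mp h2
      have h4 : c⁻¹ * (g * x₀ * g⁻¹) * c = x₀ := by
        apply huniq _ h3
        rw [isConj_iff]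
        refine ⟨(c⁻¹ * g)⁻¹, ?_⟩
        group
      have h5 : g * x₀ * g⁻¹ = c * x₀ * c⁻¹ := by
        conv_rhs => rw [← h4]
        group
      rw [h5]
      have e6 : c * x₀ * c⁻¹ * x₀⁻¹ = c * (x₀ * c⁻¹ * x₀⁻¹) := by group
      rw [e6]
      exact odd_orderOf_of_mem hK.odd (K.mul_mem hc (hK.norm _ hx₀ _ (K.inv_mem hc)))
    · push Not at htriple
      exact fun g => odd_of_no_triple hH hab hcl hI hN htriple hx₀ g
  have hiso : IsIsolatedInvolution x₀ := by
    refine ⟨ho, fun g hc => ?_⟩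
    set y := g * x₀ * g⁻¹ with hy
    have hy2 : y * y = 1 := by
      rw [hy]
      have : g * x₀ * g⁻¹ * (g * x₀ * g⁻¹) = g * (x₀ * x₀) * g⁻¹ := by group
      rw [this, hx2]
      group
    have hinv : x₀⁻¹ = x₀ := inv_eq_of_mul_eq_one_left hx2
    have hz2 : (y * x₀⁻¹) ^ 2 = 1 := by
      rw [hinv, pow_two]
      have : y * x₀ * (y * x₀) = y * (x₀ * y) * x₀ := by group
      rw [this, hc.eq]
      have : y * (y * x₀) * x₀ = (y * y) * (x₀ * x₀) := by group
      rw [this, hy2, hx2, one_mul]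
    have hone : y * x₀⁻¹ = 1 := by
      have h1 : orderOf (y * x₀⁻¹) ∣ 2 := orderOf_dvd_of_pow_eq_one hz2
      have h2 : Odd (orderOf (y * x₀⁻¹)) := hodd g
      have h3 : orderOf (y * x₀⁻¹) = 1 := by
        have := Nat.le_of_dvd (by norm_num) h1
        interval_cases h : orderOf (y * x₀⁻¹)
        · simp at h2
        · rfl
        · exact absurd h2 (by decide)
      exact orderOf_eq_one_iff.mp h3
    exact mul_inv_eq_one.mp hone
  obtain ⟨g, hg⟩ := hZ x₀ hx₀ hx1
  apply hg
  have h := Cfsg.Agent.Lib.ZStar.Cor.zstar' hiso g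
  rw [hO, Subgroup.mem_bot] at h
  have h2 : x₀ * g * x₀⁻¹ = g := by
    have := mul_inv_eq_one.mp h
    exact this
  have h3 : x₀ * g = g * x₀ := mul_inv_eq_iff_eq_mul.mp h2
  exact h3.symm

/-- One step of the induction. -/
theorem step (IH : ∀ (G' : Type u) [Group G'] [Finite G'] (H' : Subgroup G'),
      Nat.card G' < Nat.card G → IsPGroup 2 H' → IsMulCommutative H' → IsExtremelyClosed H' →
      normalizer (H' : Set G') ⊔ pPrimeCore 2 G' = ⊤)
    (hH : IsPGroup 2 H) (hab : IsMulCommutative H) (hcl : IsExtremelyClosed H) :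
    normalizer (H : Set G) ⊔ pPrimeCore 2 G = ⊤ := by
  classical
  haveI : Fact (Nat.Prime 2) := ⟨Nat.prime_two⟩
  have hcardY : ∀ Y : Subgroup G, Y ≠ ⊤ → Nat.card Y < Nat.card G := fun Y hY =>
    lt_of_le_of_ne (Subgroup.card_le_card_group Y) (fun h => hY (Subgroup.eq_top_of_card_eq Y h))
  have hcardQ : ∀ Z : Subgroup G, ∀ _ : Z.Normal, Z ≠ ⊥ → Nat.card (G ⧸ Z) < Nat.card G := by
    intro Z _ hZ
    have h1 := Subgroup.card_eq_card_quotient_mul_card_subgroup Z
    have h2 : 1 < Nat.card Z := by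
      have h3 : Nat.card Z ≠ 1 := fun h => hZ (Subgroup.eq_bot_of_card_eq Z h)
      have h4 : 0 < Nat.card Z := Nat.card_pos
      omega
    have h5 : 0 < Nat.card (G ⧸ Z) := Nat.card_pos
    rw [h1]
    nlinarith
  have habmap : ∀ (Q : Type u) [Group Q] (f : G →* Q), IsMulCommutative (H.map f) := by
    intro Q _ f
    refine ⟨⟨?_⟩⟩
    rintro ⟨_, a, ha, rfl⟩ ⟨_, b, hb, rfl⟩
    apply Subtype.ext
    change f a * f b = f b * f a
    rw [← map_mul, comm_of_ab hab ha hb, map_mul]
  have habsub : ∀ Y : Subgroup G, IsMulCommutative (H.subgroupOf Y) := by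
    intro Y
    refine ⟨⟨?_⟩⟩
    rintro ⟨a, ha⟩ ⟨b, hb⟩
    apply Subtype.ext
    apply Subtype.ext
    exact comm_of_ab hab (Subgroup.mem_subgroupOf.mp ha) (Subgroup.mem_subgroupOf.mp hb)
  by_cases hO : pPrimeCore 2 G = ⊥
  swap
  · -- the odd core is nontrivial
    have h1 := IH (G ⧸ pPrimeCore 2 G) (H.map (QuotientGroup.mk' (pPrimeCore 2 G)))
      (hcardQ _ (Cfsg.pPrimeCore_normal 2 G) hO)
      (hH.map _) (habmap _ _)
      (isExtremelyClosed_map hH hab hcl _ (QuotientGroup.mk'_surjective _))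
    rw [Cfsg.Agent.Lib.Core.Basic.pPrimeCore_quotient_eq_bot, sup_bot_eq] at h1
    exact top_of_quotient_core hH h1
  by_cases hne : H = ⊥
  · rw [eq_top_iff]
    intro g _
    refine Subgroup.mem_sup_left ?_
    apply Cfsg.Agent.Lib.HSubgroup.Basic.mem_normalizer_of_conj_le
    intro x hx
    rw [hne, Subgroup.mem_bot] at hx ⊢
    rw [hx]
    group
  by_cases hN : normalClosure (H : Set G) = ⊤
  swap
  · have hHR : H ≤ normalClosure (H : Set G) := Subgroup.le_normalClosure
    have h1 := IH (normalClosure (H : Set G)) (H.subgroupOf (normalClosure (H : Set G)))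
      (hcardY _ hN) (hH.comap_of_injective _ (Subgroup.subtype_injective _))
      (habsub _) (isExtremelyClosed_subgroupOf hcl hHR)
    have h2 := top_of_closure hcl hO (Subgroup.normalClosure_normal) hHR h1
    rw [h2, top_sup_eq]
  by_cases hZ : ∀ t ∈ H, t ≠ 1 → ∃ g : G, g * t ≠ t * g
  · exfalso
    refine critical_false hH hab hcl hne hO hN hZ ?_
    intro Y hHY hY
    exact IH Y (H.subgroupOf Y) (hcardY Y hY)
      (hH.comap_of_injective _ Y.subtype_injective) (habsub _) (isExtremelyClosed_subgroupOf hcl hHY)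
  · -- `H` meets the center
    push Not at hZ
    obtain ⟨t, ht, ht1, htc⟩ := hZ
    set Z₀ : Subgroup G := H ⊓ center G with hZ₀
    haveI hZ₀n : Z₀.Normal := by
      constructor
      rintro z ⟨hz1, hz2⟩ g
      have e : g * z * g⁻¹ = z := by
        rw [(Subgroup.mem_center_iff.mp hz2 g)]
        group
      rw [e]
      exact ⟨hz1, hz2⟩
    have hZ₀ne : Z₀ ≠ ⊥ := by
      intro h
      have h1 : t ∈ Z₀ := ⟨ht, Subgroup.mem_center_iff.mpr htc⟩
      rw [h, Subgroup.mem_bot] at h1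
      exact ht1 h1
    have hZ₀c : ∀ z ∈ Z₀, ∀ g : G, z * g = g * z := fun z hz g =>
      (Subgroup.mem_center_iff.mp hz.2 g).symm
    have hZ₀2 : IsPGroup 2 Z₀ := hH.to_le inf_le_left
    have h1 := IH (G ⧸ Z₀) (H.map (QuotientGroup.mk' Z₀)) (hcardQ _ hZ₀n hZ₀ne)
      (hH.map _) (habmap _ _)
      (isExtremelyClosed_map hH hab hcl _ (QuotientGroup.mk'_surjective _))
    rw [core_central_quot_eq_bot Z₀ hZ₀c hZ₀2 hO, sup_bot_eq] at h1
    rw [eq_top_iff]
    intro g _
    refine Subgroup.mem_sup_left ?_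
    apply Cfsg.Agent.Lib.HSubgroup.Basic.mem_normalizer_of_conj_le
    intro s hs
    have h2 : QuotientGroup.mk' Z₀ g ∈ normalizer ((H.map (QuotientGroup.mk' Z₀) : Subgroup (G ⧸ Z₀)) :
        Set (G ⧸ Z₀)) := by
      rw [h1]
      exact Subgroup.mem_top _
    obtain ⟨s', hs', e⟩ := (mem_normalizer_iff.mp h2 (QuotientGroup.mk' Z₀ s)).mp ⟨s, hs, rfl⟩
    have h3 : QuotientGroup.mk' Z₀ s' = QuotientGroup.mk' Z₀ (g * s * g⁻¹) := by
      rw [e]
      simp only [map_mul, map_inv]
    have h5 : s'⁻¹ * (g * s * g⁻¹) ∈ Z₀ := QuotientGroup.eq.mp h3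
    have h6 : g * s * g⁻¹ = s' * (s'⁻¹ * (g * s * g⁻¹)) := by group
    rw [h6]
    exact H.mul_mem hs' h5.1

/-- **The factorization `G = N_G(H) O(G)`** for an extremely closed abelian `2`-subgroup `H`. -/
theorem main_factorization {G : Type u} [Group G] [Finite G] (H : Subgroup G) (hH : IsPGroup 2 H)
    (hab : IsMulCommutative H) (hcl : IsExtremelyClosed H) :
    normalizer (H : Set G) ⊔ pPrimeCore 2 G = ⊤ := by
  suffices h : ∀ n : ℕ, ∀ (G : Type u) [Group G] [Finite G] (H : Subgroup G), Nat.card G = n →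
      IsPGroup 2 H → IsMulCommutative H → IsExtremelyClosed H →
      normalizer (H : Set G) ⊔ pPrimeCore 2 G = ⊤ from h _ G H rfl hH hab hcl
  intro n
  induction n using Nat.strong_induction_on with
  | _ n ih =>
    intro G _ _ H hn hH hab hcl
    refine step (fun G' _ _ H' hlt h1 h2 h3 => ?_) hH hab hcl
    exact ih _ (hn ▸ hlt) G' H' rfl h1 h2 h3

end Cfsg.Agent.Lib.ZStar.EC
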